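import Cfsg.Agent.Lib.Helper1.Cores

set_option autoImplicit false

/-! GAG ladder (S4839), rung BACK. -/

namespace Cfsg.Agent.Lib.Helper54.Gag

open Cfsg
open scoped Pointwise

theorem back {G : Type*} [Group G] [Finite G] (p : ℕ) [Fact p.Prime] (N : Subgroup G) [N.Normal]
    (hNp : IsPGroup p N) (hN1 : N ≠ ⊥) (H : Subgroup G)
    (hK : Cfsg.frobeniusKernel H = (N : Set G)) (hc : Nat.card H + 1 = Nat.card N) :
    N = Cfsg.pCore p G := by
  classical
  have hp : p.Prime := Fact.out
  apply le_antisymm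
  · exact Cfsg.Agent.Lib.Helper1.le_pCore inferInstance hNp
  · intro y hy
    by_contra hyN
    have h1 : y ∉ Cfsg.frobeniusKernel H := by rw [hK]; exact hyN
    have h2 : y ≠ 1 ∧ ∃ g : G, y ∈ MulAut.conj g • H := by
      simp only [Cfsg.frobeniusKernel, Set.mem_setOf_eq, not_or, not_forall, not_not] at h1
      exact h1
    obtain ⟨hy1, g, hg⟩ := h2
    obtain ⟨h, hh, rfl⟩ := hg
    have hh1 : h ≠ 1 := by
      rintro rfl
      exact hy1 (by simp)
    have hnorm := Cfsg.Agent.Lib.Helper1.pCore_normal p G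
    have hhO : h ∈ Cfsg.pCore p G := by
      have := hnorm.conj_mem _ hy g⁻¹
      simpa [MulAut.conj_apply, mul_assoc] using this
    obtain ⟨k, hk⟩ := (Cfsg.Agent.Lib.Helper1.pCore_isPGroup p G) ⟨h, hhO⟩
    have hk' : h ^ p ^ k = 1 := by
      have := congrArg Subtype.val hk
      simpa using this
    obtain ⟨j, hj, hord⟩ := (Nat.dvd_prime_pow hp).1 (orderOf_dvd_of_pow_eq_one hk')
    have hj0 : j ≠ 0 := by
      rintro rfl
      rw [pow_zero, orderOf_eq_one_iff] at hord
      exact hh1 hord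
    have hpH : p ∣ Nat.card H := by
      have h3 : orderOf h ∣ Nat.card H := by
        have := orderOf_dvd_natCard (⟨h, hh⟩ : H)
        rwa [Subgroup.orderOf_mk] at this
      exact (hord ▸ dvd_pow_self p hj0 : p ∣ orderOf h).trans h3
    have hpN : p ∣ Nat.card N := by
      obtain ⟨n, hn⟩ := hNp.exists_card_eq
      have hn0 : n ≠ 0 := by
        rintro rfl
        rw [pow_zero] at hn
        exact hN1 (Subgroup.card_eq_one.1 hn)
      rw [hn]; exact dvd_pow_self p hn0
    rw [← hc] at hpN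
    have : p ∣ 1 := (Nat.dvd_add_right hpH).1 hpN
    exact hp.one_lt.ne' (Nat.dvd_one.1 this)

end Cfsg.Agent.Lib.Helper54.Gag
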