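import Cfsg.Prelude.Def_Characters

set_option autoImplicit false

/-! GAG ladder (S4839), rung CH1. -/

namespace Cfsg.Agent.Lib.Helper54.Gag

open Cfsg

theorem ch1 {G : Type*} [Group G] [Finite G] (χ : Cfsg.IrrCharacter G)
    (hχ : Nat.card {C : ConjClasses G // ∃ g ∈ C.carrier, (χ : G → ℂ) g ≠ 0} = 2)
    (N : Subgroup G) (hN : ∀ g : G, g ∈ N ↔ (χ : G → ℂ) g ≠ 0) :
    ∀ x ∈ N, ∀ y ∈ N, x ≠ 1 → y ≠ 1 → IsConj x y := by
  classical
  intro x hx y hy hx1 hy1
  by_contra hxy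
  have mk : ∀ g : G, g ∈ N → ∃ h ∈ (ConjClasses.mk g).carrier, (χ : G → ℂ) h ≠ 0 := by
    intro g hg
    exact ⟨g, ConjClasses.mem_carrier_mk, (hN g).1 hg⟩
  let T := {C : ConjClasses G // ∃ g ∈ C.carrier, (χ : G → ℂ) g ≠ 0}
  let a : T := ⟨ConjClasses.mk 1, mk 1 N.one_mem⟩
  let b : T := ⟨ConjClasses.mk x, mk x hx⟩
  let c : T := ⟨ConjClasses.mk y, mk y hy⟩
  have hab : a ≠ b := by
    intro h
    have h1 : ConjClasses.mk (1 : G) = ConjClasses.mk x := congrArg Subtype.val h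
    rw [ConjClasses.mk_eq_mk_iff_isConj] at h1
    exact hx1 (isConj_one_right.1 h1)
  have hac : a ≠ c := by
    intro h
    have h1 : ConjClasses.mk (1 : G) = ConjClasses.mk y := congrArg Subtype.val h
    rw [ConjClasses.mk_eq_mk_iff_isConj] at h1
    exact hy1 (isConj_one_right.1 h1)
  have hbc : b ≠ c := by
    intro h
    have h1 : ConjClasses.mk x = ConjClasses.mk y := congrArg Subtype.val h
    rw [ConjClasses.mk_eq_mk_iff_isConj] at h1
    exact hxy h1
  have : Finite (ConjClasses G) := Quotient.finite _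
  have : Finite T := Subtype.finite
  have : Fintype T := Fintype.ofFinite T
  have h3 : 2 < Fintype.card T := Fintype.two_lt_card_iff.2 ⟨a, b, c, hab, hac, hbc⟩
  rw [← Nat.card_eq_fintype_card] at h3
  have : Nat.card T = 2 := hχ
  omega

end Cfsg.Agent.Lib.Helper54.Gag
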