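import Cfsg.Agent.Lib.Helper82.Ortho
import Cfsg.Agent.Lib.Helper82.CharKer

set_option autoImplicit false

/-! GAG ladder (S4839), rung CH2. -/

namespace Cfsg.Agent.Lib.Helper54.Gag

open Cfsg Cfsg.Agent.Lib.Helper82
open scoped ComplexConjugate

theorem ch2 {G : Type*} [Group G] [Finite G] (χ : Cfsg.IrrCharacter G) (N : Subgroup G)
    (hN : ∀ g : G, g ∈ N ↔ (χ : G → ℂ) g ≠ 0)
    (hk : ∀ ψ : Cfsg.IrrCharacter G, ψ ≠ χ → ∀ n ∈ N, (ψ : G → ℂ) n = (ψ : G → ℂ) 1) :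
    ∀ g, g ∉ N → ∀ n ∈ N, IsConj g (g * n) := by
  classical
  intro g hg n hn
  by_contra hc
  have h0 := finsum_irr_mul_conj_of_not_isConj hc
  have h1 := finsum_irr_mul_conj_self g
  have hχg : (χ : G → ℂ) g = 0 := by
    by_contra h
    exact hg ((hN g).2 h)
  have h2 : ∑ᶠ ψ : IrrCharacter G, (ψ : G → ℂ) g * conj ((ψ : G → ℂ) (g * n)) =
      ∑ᶠ ψ : IrrCharacter G, (ψ : G → ℂ) g * conj ((ψ : G → ℂ) g) := by
    apply finsum_congr
    intro ψ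
    by_cases hψ : ψ = χ
    · rw [hψ, hχg, zero_mul, zero_mul]
    · rw [isChar_mul_of_mem_ker (isIrr_isChar ψ.2) (hk ψ hψ n hn) g]
  rw [h2, h1] at h0
  have h3 : Nat.card (Subgroup.centralizer ({g} : Set G)) ≠ 0 := Nat.card_pos.ne'
  exact h3 (by exact_mod_cast h0)

end Cfsg.Agent.Lib.Helper54.Gag
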