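import Cfsg.Agent.Lib.Helper82.Ortho
import Cfsg.Agent.Lib.Helper20.CharOrth

set_option autoImplicit false

/-! GAG ladder (S4839), rung CHK. -/

namespace Cfsg.Agent.Lib.Helper54.Gag

open Cfsg Cfsg.Agent.Lib.Helper82
open scoped ComplexConjugate

theorem chk_card_le {G : Type*} [Group G] [Finite G] (p : ℕ) [Fact p.Prime]
    (hp : IsPGroup p G) (c1 : ∀ x y : G, x ≠ 1 → y ≠ 1 → IsConj x y) : Nat.card G ≤ 2 := by
  classical
  by_cases hnt : Nontrivial G
  · have hcn : Nontrivial (Subgroup.center G) := hp.center_nontrivial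
    obtain ⟨⟨z, hz⟩, hz1⟩ := exists_ne (1 : Subgroup.center G)
    have hz1' : z ≠ 1 := fun h => hz1 (Subtype.ext h)
    have hall : ∀ x : G, x = 1 ∨ x = z := by
      intro x
      by_cases hx : x = 1
      · exact Or.inl hx
      · right
        obtain ⟨c, hc⟩ := isConj_iff.1 (c1 z x hz1' hx)
        rw [← hc, (Subgroup.mem_center_iff.1 hz c), mul_inv_cancel_right]
    have : Fintype G := Fintype.ofFinite G
    rw [Nat.card_eq_fintype_card]
    calc Fintype.card G = (Finset.univ : Finset G).card := rfl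
      _ ≤ ({1, z} : Finset G).card := by
        apply Finset.card_le_card
        intro x _
        rcases hall x with h | h <;> simp [h]
      _ ≤ 2 := Finset.card_le_two
  · rw [not_nontrivial_iff_subsingleton] at hnt
    rw [Nat.card_of_subsingleton 1]
    omega

theorem chk {G : Type*} [Group G] [Finite G] (hG : 2 < Nat.card G) (χ : Cfsg.IrrCharacter G)
    (p : ℕ) [Fact p.Prime] (N : Subgroup G) (hN : ∀ g : G, g ∈ N ↔ (χ : G → ℂ) g ≠ 0)
    (hNp : IsPGroup p N) (hN1 : N ≠ ⊥)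
    (c1 : ∀ x ∈ N, ∀ y ∈ N, x ≠ 1 → y ≠ 1 → IsConj x y) (ψ : Cfsg.IrrCharacter G)
    (hψ : ψ ≠ χ) : ∀ n ∈ N, (ψ : G → ℂ) n = (ψ : G → ℂ) 1 := by
  classical
  have : Fintype G := Fintype.ofFinite G
  obtain ⟨x0, hx0, hx01⟩ : ∃ x : G, x ∈ N ∧ x ≠ 1 := by
    obtain ⟨a, ha⟩ := Subgroup.ne_bot_iff_exists_ne_one.1 hN1
    exact ⟨a, a.2, fun h' => ha (Subtype.ext h')⟩
  obtain ⟨m, hm⟩ : ∃ m : ℕ, m = (((Finset.univ : Finset G).erase 1).filter (· ∈ N)).card :=
    ⟨_, rfl⟩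
  have hm0 : m ≠ 0 := by
    rw [hm]
    apply Finset.card_ne_zero_of_mem (a := x0)
    simp [hx0, hx01]
  have ha : (χ : G → ℂ) x0 ≠ 0 := (hN x0).1 hx0
  -- the sum formula
  have key : ∀ φ : IrrCharacter G, ∑ g : G, (φ : G → ℂ) g * conj ((χ : G → ℂ) g) =
      (φ : G → ℂ) 1 * conj ((χ : G → ℂ) 1) +
        (m : ℂ) * ((φ : G → ℂ) x0 * conj ((χ : G → ℂ) x0)) := by
    intro φ
    rw [← Finset.add_sum_erase _ _ (Finset.mem_univ (1 : G))]
    congr 1
    have h1 : ∀ g ∈ (Finset.univ : Finset G).erase 1,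
        (φ : G → ℂ) g * conj ((χ : G → ℂ) g) =
          if g ∈ N then (φ : G → ℂ) x0 * conj ((χ : G → ℂ) x0) else 0 := by
      intro g hg
      have hg1 : g ≠ 1 := (Finset.mem_erase.1 hg).1
      split_ifs with hgN
      · have hc := c1 g hgN x0 hx0 hg1 hx01
        rw [isChar_eq_of_isConj (isIrr_isChar φ.2) hc, isChar_eq_of_isConj (isIrr_isChar χ.2) hc]
      · have : (χ : G → ℂ) g = 0 := by
          by_contra h
          exact hgN ((hN g).2 h)
        rw [this, map_zero, mul_zero]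
    rw [Finset.sum_congr rfl h1, ← Finset.sum_filter, Finset.sum_const, ← hm, nsmul_eq_mul]
  have orth : ∀ φ : IrrCharacter G, φ ≠ χ →
      (φ : G → ℂ) 1 * conj ((χ : G → ℂ) 1) +
        (m : ℂ) * ((φ : G → ℂ) x0 * conj ((χ : G → ℂ) x0)) = 0 := by
    intro φ hφ
    have h := Cfsg.Agent.Lib.Helper20.classInner_irr_ne φ.2 χ.2 (fun h => hφ (Subtype.ext h))
    rw [classInner, key φ] at h
    have hc : ((Nat.card G : ℂ))⁻¹ ≠ 0 := by
      apply inv_ne_zero
      exact_mod_cast (Nat.card_pos (α := G)).ne'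
    exact (mul_eq_zero.1 h).resolve_left hc
  have htriv : trivIrr G ≠ χ := by
    intro h
    have hNtop : N = ⊤ := by
      rw [eq_top_iff]
      intro g _
      rw [hN g, ← h]
      simp
    have hpG : IsPGroup p G := by
      rw [hNtop] at hNp
      exact hNp.of_equiv Subgroup.topEquiv
    have := chk_card_le p hpG (fun x y hx hy =>
      c1 x (hNtop ▸ Subgroup.mem_top x) y (hNtop ▸ Subgroup.mem_top y) hx hy)
    omega
  have e1 := orth (trivIrr G) htriv
  have e2 := orth ψ hψ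
  simp only [trivIrr_apply, one_mul] at e1
  have hca : conj ((χ : G → ℂ) x0) ≠ 0 := by
    simpa using ha
  have e3 : (m : ℂ) * conj ((χ : G → ℂ) x0) * ((ψ : G → ℂ) x0 - (ψ : G → ℂ) 1) = 0 := by
    have e4 : conj ((χ : G → ℂ) 1) = - ((m : ℂ) * conj ((χ : G → ℂ) x0)) := by
      linear_combination e1
    rw [e4] at e2
    linear_combination e2
  have hm0' : (m : ℂ) ≠ 0 := by exact_mod_cast hm0
  have e5 : (ψ : G → ℂ) x0 = (ψ : G → ℂ) 1 := by
    have := (mul_eq_zero.1 e3).resolve_left (mul_ne_zero hm0' hca)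
    exact sub_eq_zero.1 this
  intro n hn
  by_cases hn1 : n = 1
  · rw [hn1]
  · rw [isChar_eq_of_isConj (isIrr_isChar ψ.2) (c1 n hn x0 hx0 hn1 hx01), e5]

end Cfsg.Agent.Lib.Helper54.Gag
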