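import Cfsg.Agent.S4303
import Cfsg.Agent.S4304
import Cfsg.Agent.S4343

set_option autoImplicit false
open Cfsg

namespace Cfsg.Agent.Lib.Helper54.Syl21

open Subgroup MulAction

section Gen
variable {G Ω : Type*} [Group G] [Finite G] [MulAction G Ω] [Finite Ω]

theorem pow_smul_mem (z : G) (F : Set Ω) (hF : ∀ Q ∈ F, z • Q ∈ F) (k : ℕ) :
    ∀ Q ∈ F, z ^ k • Q ∈ F := by
  induction k with
  | zero => intro Q hQ; simpa using hQ
  | succ k ih =>
    intro Q hQ
    rw [pow_succ, mul_smul]
    exact ih _ (hF Q hQ)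

theorem card_modEq_fixed {p : ℕ} [Fact p.Prime] (z : G) (hz : IsPGroup p (zpowers z)) (F : Set Ω)
    (hF : ∀ Q ∈ F, z • Q ∈ F) :
    Nat.card F ≡ Nat.card ↥(F ∩ fixedBy Ω z) [MOD p] := by
  let F' : SubMulAction (zpowers z) Ω :=
    { carrier := F
      smul_mem' := by
        rintro ⟨x, hx⟩ Q hQ
        rw [← mem_powers_iff_mem_zpowers] at hx
        obtain ⟨k, rfl⟩ := hx
        exact pow_smul_mem z F hF k Q hQ }
  have h1 : Nat.card F' ≡ Nat.card (fixedPoints (zpowers z) F') [MOD p] :=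
    hz.card_modEq_card_fixedPoints F'
  have h2 : Nat.card (fixedPoints (zpowers z) F') = Nat.card ↥(F ∩ fixedBy Ω z) := by
    refine Nat.card_congr
      { toFun := fun q => ⟨q.1.1, q.1.2,
          congrArg (fun w : F' => (w : Ω)) (q.2 ⟨z, mem_zpowers z⟩)⟩
        invFun := fun q => ⟨⟨q.1, q.2.1⟩, fun x => Subtype.ext (by
          have h3 : z ∈ stabilizer G q.1 := q.2.2
          have h4 : zpowers z ≤ stabilizer G q.1 := (zpowers_le).2 h3
          exact h4 x.2)⟩
        left_inv := fun q => rfl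
        right_inv := fun q => rfl }
  rw [h2] at h1
  exact h1

open Classical in
theorem card_dvd_of_const (H : Subgroup G) (c : ℕ) (hc : c ≤ Nat.card Ω)
    (h : ∀ g ∈ H, g ≠ 1 → Nat.card (fixedBy Ω g) = c) : Nat.card H ∣ Nat.card Ω - c := by
  have : Fintype Ω := Fintype.ofFinite _
  have : Fintype H := Fintype.ofFinite _
  have key := MulAction.sum_card_fixedBy_eq_card_orbits_mul_card_group H Ω
  have h1 : ∑ a : H, Fintype.card (fixedBy Ω a) = Fintype.card Ω + (Fintype.card H - 1) * c := by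
    rw [← Finset.add_sum_erase Finset.univ _ (Finset.mem_univ (1 : H))]
    congr 1
    · rw [← Nat.card_eq_fintype_card, ← Nat.card_eq_fintype_card]
      have : fixedBy Ω (1 : H) = Set.univ := by ext Q; simp
      rw [this, Nat.card_univ]
    · rw [Finset.sum_congr rfl (g := fun _ => c), Finset.sum_const, Finset.card_erase_of_mem (Finset.mem_univ _),
        Finset.card_univ, smul_eq_mul]
      intro a ha
      rw [← Nat.card_eq_fintype_card]
      refine h a a.2 ?_
      intro h1
      exact (Finset.mem_erase.1 ha).1 (Subtype.ext h1)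
  rw [h1] at key
  rw [Nat.card_eq_fintype_card, Nat.card_eq_fintype_card]
  rw [Nat.card_eq_fintype_card] at hc
  have hpos : 0 < Fintype.card H := Fintype.card_pos
  set n := Fintype.card H
  set m := Fintype.card (orbitRel.Quotient H Ω)
  set w := Fintype.card Ω
  have : ((n : ℤ)) ∣ ((w - c : ℕ) : ℤ) := by
    refine ⟨(m : ℤ) - c, ?_⟩
    have h2 : ((w : ℤ)) + ((n : ℤ) - 1) * c = m * n := by
      have := congrArg (fun x : ℕ => (x : ℤ)) key
      push_cast [Nat.cast_sub hpos] at this
      simpa using this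
    rw [Nat.cast_sub hc]
    linarith
  exact_mod_cast this

theorem fixedBy_subset_pow (g : G) (k : ℕ) : fixedBy Ω g ⊆ fixedBy Ω (g ^ k) := by
  intro Q hQ
  have h3 : g ∈ stabilizer G Q := hQ
  exact (stabilizer G Q).pow_mem h3 k

theorem card_fixedBy_le_pow (g : G) (k : ℕ) :
    Nat.card (fixedBy Ω g) ≤ Nat.card (fixedBy Ω (g ^ k)) :=
  Nat.card_mono (Set.toFinite _) (fixedBy_subset_pow g k)

end Gen

instance fact5 : Fact (Nat.Prime 5) := ⟨by norm_num⟩

section Basic
variable {S : Type*} [Group S] [Finite S]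

/-- the number of Sylow 5-subgroups normalized by `g` -/
noncomputable def fx (g : S) : ℕ := Nat.card (fixedBy (Sylow 5 S) g)

theorem isPGroup_zpowers {r : ℕ} (g : S) (k : ℕ) (hg : orderOf g = r ^ k) :
    IsPGroup r (zpowers g) := IsPGroup.of_card (n := k) (by rw [Nat.card_zpowers, hg])

theorem mem_of_smul_eq (z : S) (hz : orderOf z = 5) (Q : Sylow 5 S) (h : z • Q = Q) :
    z ∈ (Q : Subgroup S) := by
  have hp : IsPGroup 5 (zpowers z) := isPGroup_zpowers z 1 (by rw [hz, pow_one])
  have h1 := hp.inf_normalizer_sylow Q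
  have h2 : z ∈ zpowers z ⊓ normalizer (Q : Set S) :=
    ⟨mem_zpowers z, Sylow.smul_eq_iff_mem_normalizer.1 h⟩
  rw [h1] at h2
  exact h2.2

theorem exists_fixed (z : S) (hz : orderOf z = 5) : ∃ Q : Sylow 5 S, z ∈ (Q : Subgroup S) := by
  have hp : IsPGroup 5 (zpowers z) := isPGroup_zpowers z 1 (by rw [hz, pow_one])
  obtain ⟨Q, hQ⟩ := hp.exists_le_sylow
  exact ⟨Q, hQ (mem_zpowers z)⟩

theorem smul_self_of_mem (P : Sylow 5 S) (x : S) (hx : x ∈ (P : Subgroup S)) : x • P = P :=
  Sylow.smul_eq_iff_mem_normalizer.2 (le_normalizer hx)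

theorem fx_le (g : S) : fx g ≤ Nat.card (Sylow 5 S) := Finite.card_subtype_le _

theorem fx_le_pow (g : S) (k : ℕ) : fx g ≤ fx (g ^ k) := card_fixedBy_le_pow g k

theorem fx_modEq {r : ℕ} [Fact r.Prime] (g : S) (k : ℕ) (hg : orderOf g = r ^ k) :
    Nat.card (Sylow 5 S) ≡ fx g [MOD r] := by
  have h1 := card_modEq_fixed (Ω := Sylow 5 S) g (isPGroup_zpowers g k hg) Set.univ (fun _ _ => trivial)
  rw [Set.univ_inter, Nat.card_univ] at h1
  exact h1

theorem two_le_fx (g : S) (P Q : Sylow 5 S) (hPQ : P ≠ Q) (hP : g • P = P) (hQ : g • Q = Q) :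
    2 ≤ fx g := by
  have h1 : ({P, Q} : Set (Sylow 5 S)) ⊆ fixedBy (Sylow 5 S) g := by
    rintro R (rfl | rfl)
    · exact hP
    · exact hQ
  have h2 := Set.ncard_le_ncard h1 (Set.toFinite _)
  rw [Set.ncard_pair hPQ] at h2
  exact h2

end Basic

section Simple
variable {S : Type*} [Group S] [Finite S] [IsSimpleGroup S] (h21 : Nat.card (Sylow 5 S) = 21)
include h21

theorem faithful (g : S) (hg : ∀ Q : Sylow 5 S, g • Q = Q) : g = 1 := by
  rcases IsSimpleGroup.eq_bot_or_eq_top_of_normal (MulAction.toPermHom S (Sylow 5 S)).ker inferInstance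
    with h | h
  · have : g ∈ (MulAction.toPermHom S (Sylow 5 S)).ker := by
      rw [MonoidHom.mem_ker]
      exact Equiv.ext fun Q => hg Q
    rw [h, mem_bot] at this
    exact this
  · exfalso
    have hsub : Subsingleton (Sylow 5 S) := by
      refine ⟨fun P Q => ?_⟩
      obtain ⟨x, hx⟩ := MulAction.exists_smul_eq S P Q
      have : x ∈ (MulAction.toPermHom S (Sylow 5 S)).ker := by rw [h]; trivial
      rw [MonoidHom.mem_ker] at this
      have h2 : x • P = P := by
        have := congrArg (fun σ : Equiv.Perm (Sylow 5 S) => σ P) this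
        exact this
      rw [← hx, h2]
    have := Finite.card_le_one_iff_subsingleton.2 hsub
    omega

theorem toPermHom_injective : Function.Injective (MulAction.toPermHom S (Sylow 5 S)) := by
  rw [injective_iff_map_eq_one]
  intro g hg
  apply faithful h21
  intro Q
  exact congrArg (fun σ : Equiv.Perm (Sylow 5 S) => σ Q) hg

theorem fx_le_twenty (g : S) (hg : g ≠ 1) : fx g ≤ 20 := by
  have h1 := fx_le g
  rw [h21] at h1
  by_contra hcon
  have h2 : fx g = 21 := by omega
  apply hg
  have huniv : fixedBy (Sylow 5 S) g = Set.univ := by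
    rw [Set.eq_univ_iff_ncard, h21]
    exact h2
  exact faithful h21 _ fun Q => by
    have : Q ∈ fixedBy (Sylow 5 S) g := by rw [huniv]; trivial
    exact this

omit [IsSimpleGroup S] in
theorem card_normalizer (P : Sylow 5 S) :
    21 * Nat.card (normalizer ((P : Subgroup S) : Set S)) = Nat.card S := by
  rw [← h21, Sylow.card_eq_index_normalizer P]; exact index_mul_card _

theorem card5 (P : Sylow 5 S) : Nat.card P = 5 := by
  have hsub : ¬ Subsingleton (Sylow 5 S) := by
    intro hsub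
    have := Finite.card_le_one_iff_subsingleton.2 hsub
    omega
  refine Cfsg.Agent.S4343.result ?_ 5 ?_ (by rw [h21]; norm_num) P
  · intro hc
    apply hsub
    refine ⟨fun P Q => ?_⟩
    obtain ⟨x, hx⟩ := MulAction.exists_smul_eq S P Q
    rw [← hx]
    symm
    apply Sylow.smul_eq_iff_mem_normalizer.2
    change x ∈ normalizer ((P : Subgroup S) : Set S)
    rw [mem_normalizer_iff]
    intro h
    have : x * h * x⁻¹ = h := by
      rw [hc.is_comm.comm x h, mul_inv_cancel_right]
    rw [this]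
  · by_contra h5
    apply hsub
    have hb : ∀ P : Sylow 5 S, (P : Subgroup S) = ⊥ := by
      intro P
      rw [← card_eq_one, Sylow.card_eq_multiplicity, Nat.factorization_eq_zero_of_not_dvd h5, pow_zero]
    exact ⟨fun P Q => Sylow.ext ((hb P).trans (hb Q).symm)⟩

theorem eq_zpowers (P : Sylow 5 S) (z : S) (hz : orderOf z = 5) (hzP : z ∈ (P : Subgroup S)) :
    (P : Subgroup S) = zpowers z := by
  symm
  apply Subgroup.eq_of_le_of_card_ge ((zpowers_le).2 hzP)
  rw [Nat.card_zpowers, hz]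
  exact (card5 h21 P).le

theorem unique_fixed (z : S) (hz : orderOf z = 5) (Q Q' : Sylow 5 S) (h : z • Q = Q)
    (h' : z • Q' = Q') : Q = Q' :=
  Sylow.ext ((eq_zpowers h21 Q z hz (mem_of_smul_eq z hz Q h)).trans
    (eq_zpowers h21 Q' z hz (mem_of_smul_eq z hz Q' h')).symm)

theorem exists_gen (P : Sylow 5 S) : ∃ y ∈ (P : Subgroup S), orderOf y = 5 := by
  obtain ⟨y, hy⟩ := exists_prime_orderOf_dvd_card' (G := (P : Subgroup S)) 5 (by rw [card5 h21 P])
  exact ⟨y, y.2, by rw [Subgroup.orderOf_coe, hy]⟩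

/-- a `z`-invariant set of Sylow subgroups containing the one through `z` -/
theorem card_modEq_one (z : S) (hz : orderOf z = 5) (F : Set (Sylow 5 S))
    (hF : ∀ Q ∈ F, z • Q ∈ F) (R : Sylow 5 S) (hR : z • R = R) (hRF : R ∈ F) :
    Nat.card F ≡ 1 [MOD 5] := by
  have h1 := card_modEq_fixed z (isPGroup_zpowers z 1 (by rw [hz, pow_one])) F hF
  have h2 : F ∩ fixedBy (Sylow 5 S) z = {R} := by
    ext Q
    constructor
    · rintro ⟨_, hQ⟩
      exact unique_fixed h21 z hz Q R hQ hR
    · rintro rfl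
      exact ⟨hRF, hR⟩
  rw [h2] at h1
  simpa using h1

theorem fx_modEq_five (g z : S) (hz : orderOf z = 5) (hc : Commute g z) : fx g ≡ 1 [MOD 5] := by
  obtain ⟨R, hR⟩ := exists_fixed z hz
  have hzR := smul_self_of_mem R z hR
  refine card_modEq_one h21 z hz (fixedBy (Sylow 5 S) g) ?_ R hzR ?_
  · intro Q hQ
    have hQ' : g • Q = Q := hQ
    change g • (z • Q) = z • Q
    rw [← mul_smul, hc.eq, mul_smul, hQ']
  · apply unique_fixed h21 z hz _ _ _ hzR
    rw [← mul_smul, ← hc.eq, mul_smul, hzR]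

theorem fx_five (z : S) (hz : orderOf z = 5) : fx z = 1 := by
  obtain ⟨R, hR⟩ := exists_fixed z hz
  have hzR := smul_self_of_mem R z hR
  have : fixedBy (Sylow 5 S) z = {R} := by
    ext Q
    constructor
    · intro hQ
      exact unique_fixed h21 z hz Q R hQ hzR
    · rintro rfl
      exact hzR
  unfold fx
  rw [this]
  simp

open Classical in
theorem sign_eq_one [Fintype (Sylow 5 S)] (g : S) :
    Equiv.Perm.sign (MulAction.toPerm g : Equiv.Perm (Sylow 5 S)) = 1 := by
  let φ : S →* ℤˣ := Equiv.Perm.sign.comp (MulAction.toPermHom S (Sylow 5 S))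
  rcases IsSimpleGroup.eq_bot_or_eq_top_of_normal φ.ker inferInstance with h | h
  · exfalso
    have hinj : Function.Injective φ := (MonoidHom.ker_eq_bot_iff φ).1 h
    have h1 := Nat.card_le_card_of_injective φ hinj
    rw [Nat.card_eq_fintype_card (α := ℤˣ), Fintype.card_units_int] at h1
    obtain ⟨P⟩ : Nonempty (Sylow 5 S) := inferInstance
    have h2 := card_normalizer h21 P
    have h3 : 0 < Nat.card (normalizer ((P : Subgroup S) : Set S)) := Nat.card_pos
    omega
  · have : g ∈ φ.ker := by rw [h]; trivial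
    exact this

open Classical in
theorem fx_two (g : S) (hg : orderOf g = 2) : fx g % 4 = 1 := by
  have : Fintype (Sylow 5 S) := Fintype.ofFinite _
  set σ : Equiv.Perm (Sylow 5 S) := MulAction.toPerm g with hσ
  have ho : orderOf σ = 2 :=
    (orderOf_injective (MulAction.toPermHom S (Sylow 5 S)) (toPermHom_injective h21) g).trans hg
  obtain ⟨n, hn⟩ := Equiv.Perm.cycleType_prime_order (σ := σ) (by rw [ho]; norm_num)
  rw [ho] at hn
  have hfp := Equiv.Perm.card_fixedPoints σ
  have hf' : Nat.card (Function.fixedPoints σ) = fx g := rfl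
  rw [Nat.card_eq_fintype_card] at hf'
  rw [hf', ← Nat.card_eq_fintype_card, h21, hn, Multiset.sum_replicate, smul_eq_mul] at hfp
  have hsum := Equiv.Perm.sum_cycleType σ
  rw [hn, Multiset.sum_replicate, smul_eq_mul] at hsum
  have hle : σ.support.card ≤ 21 := by
    rw [← h21, Nat.card_eq_fintype_card]
    exact Finset.card_le_univ _
  have hsign : Equiv.Perm.sign σ = 1 := sign_eq_one h21 g
  rw [Equiv.Perm.sign_of_cycleType, hn, Multiset.sum_replicate, Multiset.card_replicate,
    smul_eq_mul] at hsign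
  have hev : Even ((n + 1) * 2 + (n + 1)) := by
    by_contra hodd
    rw [Nat.not_even_iff_odd] at hodd
    rw [hodd.neg_one_pow] at hsign
    exact absurd hsign (by decide)
  obtain ⟨m, hm⟩ := hev
  omega

/-- fixed point numbers of elements of prime order centralizing an element of order 5 -/
theorem prime_case (g z : S) (hz : orderOf z = 5) (hc : Commute g z) (r : ℕ) (hr : r.Prime)
    (hg : orderOf g = r) : (r = 2 ∧ fx g = 1) ∨ (r = 3 ∧ fx g = 6) ∨ (r = 5 ∧ fx g = 1) := by
  have : Fact r.Prime := ⟨hr⟩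
  have h1 := fx_modEq_five h21 g z hz hc
  have h2 := fx_modEq (r := r) g 1 (by rw [hg, pow_one])
  rw [h21] at h2
  have hg1 : g ≠ 1 := by
    rintro rfl
    rw [orderOf_one] at hg
    exact hr.one_lt.ne hg
  have h3 := fx_le_twenty h21 g hg1
  have h4 : r ∣ 21 - fx g := (Nat.modEq_iff_dvd' (by omega)).1 h2.symm
  unfold Nat.ModEq at h1
  have h5 : fx g = 1 ∨ fx g = 6 ∨ fx g = 11 ∨ fx g = 16 := by omega
  rcases h5 with h5 | h5 | h5 | h5
  · rw [h5] at h4
    have h6 : r ∣ 2 ^ 2 * 5 := by norm_num; exact h4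
    rcases (Nat.Prime.dvd_mul hr).1 h6 with h7 | h7
    · left
      exact ⟨(Nat.prime_dvd_prime_iff_eq hr (by norm_num)).1 (hr.dvd_of_dvd_pow h7), h5⟩
    · right; right
      exact ⟨(Nat.prime_dvd_prime_iff_eq hr (by norm_num)).1 h7, h5⟩
  · rw [h5] at h4
    have h6 : r ∣ 3 * 5 := by norm_num; exact h4
    rcases (Nat.Prime.dvd_mul hr).1 h6 with h7 | h7
    · right; left
      exact ⟨(Nat.prime_dvd_prime_iff_eq hr (by norm_num)).1 h7, h5⟩
    · exfalso
      have h8 := (Nat.prime_dvd_prime_iff_eq hr (by norm_num)).1 h7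
      subst h8
      have := fx_five h21 g hg
      omega
  · exfalso
    rw [h5] at h4
    have h6 : r ∣ 2 * 5 := by norm_num; exact h4
    rcases (Nat.Prime.dvd_mul hr).1 h6 with h7 | h7
    · have h8 := (Nat.prime_dvd_prime_iff_eq hr (by norm_num)).1 h7
      subst h8
      have := fx_two h21 g hg
      omega
    · have h8 := (Nat.prime_dvd_prime_iff_eq hr (by norm_num)).1 h7
      subst h8
      have := fx_five h21 g hg
      omega
  · exfalso
    rw [h5] at h4
    have h7 : r ∣ 5 := by norm_num at h4; exact h4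
    have h8 := (Nat.prime_dvd_prime_iff_eq hr (by norm_num)).1 h7
    subst h8
    have := fx_five h21 g hg
    omega

/-- a nonidentity element centralizing an element of order 5: description by a prime divisor
of its order -/
theorem fx_of_prime_dvd (g z : S) (hz : orderOf z = 5) (hc : Commute g z) (r : ℕ) (hr : r.Prime)
    (hg : r ∣ orderOf g) : (r = 2 ∧ fx g = 1) ∨ (r = 3 ∧ (fx g = 1 ∨ fx g = 6)) ∨ (r = 5 ∧ fx g = 1) := by
  have ho : orderOf (g ^ (orderOf g / r)) = r := by
    apply orderOf_pow_orderOf_div (orderOf_pos g).ne' hg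
  have h1 := prime_case h21 (g ^ (orderOf g / r)) z hz (hc.pow_left _) r hr ho
  have h2 := fx_le_pow g (orderOf g / r)
  have h3 := fx_modEq_five h21 g z hz hc
  unfold Nat.ModEq at h3
  rcases h1 with ⟨h, h4⟩ | ⟨h, h4⟩ | ⟨h, h4⟩
  · left; exact ⟨h, by omega⟩
  · right; left; exact ⟨h, by omega⟩
  · right; right; exact ⟨h, by omega⟩

omit h21 [IsSimpleGroup S] in
theorem commute_of_mem_centralizer (P : Sylow 5 S) (g y : S)
    (hg : g ∈ centralizer ((P : Subgroup S) : Set S)) (hy : y ∈ (P : Subgroup S)) : Commute g y :=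
  ((mem_centralizer_iff.1 hg) y hy).symm

omit h21 [IsSimpleGroup S] in
theorem smul_of_mem_centralizer (P : Sylow 5 S) (g : S)
    (hg : g ∈ centralizer ((P : Subgroup S) : Set S)) : g • P = P :=
  Sylow.smul_eq_iff_mem_normalizer.2 (centralizer_le_normalizer _ hg)

theorem card_pgroup_dvd (P : Sylow 5 S) (H : Subgroup S)
    (hH : H ≤ centralizer ((P : Subgroup S) : Set S)) (r k : ℕ) (hr : r.Prime)
    (hcard : Nat.card H = r ^ k) : r ^ k ∣ 60 := by
  have : Fact r.Prime := ⟨hr⟩
  obtain ⟨y, hyP, hy⟩ := exists_gen h21 P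
  rcases Nat.eq_zero_or_pos k with rfl | hk
  · simp
  have key : ∀ g ∈ H, g ≠ 1 → (r = 2 ∧ fx g = 1) ∨ (r = 3 ∧ fx g = 6) ∨ (r = 5 ∧ fx g = 1) := by
    intro g hg hg1
    have h1 : orderOf g ∣ r ^ k := hcard ▸ Subgroup.orderOf_dvd_natCard H hg
    obtain ⟨j, _, hj⟩ := (Nat.dvd_prime_pow hr).1 h1
    have hj0 : j ≠ 0 := by
      rintro rfl
      rw [pow_zero, orderOf_eq_one_iff] at hj
      exact hg1 hj
    have h2 : r ∣ orderOf g := by rw [hj]; exact dvd_pow_self r hj0
    rcases fx_of_prime_dvd h21 g y hy (commute_of_mem_centralizer P g y (hH hg) hyP) r hr h2 with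
      h | ⟨h, h3⟩ | h
    · left; exact h
    · right; left
      refine ⟨h, ?_⟩
      subst h
      have h4 := fx_modEq (r := 3) g j hj
      rw [h21] at h4
      unfold Nat.ModEq at h4
      omega
    · right; right; exact h
  have hne : ∃ g ∈ H, g ≠ 1 := by
    by_contra hcon
    push Not at hcon
    have : H = ⊥ := (eq_bot_iff_forall H).2 hcon
    rw [this, card_bot] at hcard
    have := Nat.one_lt_pow hk.ne' hr.one_lt
    omega
  obtain ⟨g₀, hg₀, hg₀1⟩ := hne
  rw [← hcard]
  rcases key g₀ hg₀ hg₀1 with ⟨h, _⟩ | ⟨h, _⟩ | ⟨h, _⟩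
  · have := card_dvd_of_const (Ω := Sylow 5 S) H 1 (by rw [h21]; norm_num) (fun g hg hg1 => by
      rcases key g hg hg1 with ⟨_, h'⟩ | ⟨h', _⟩ | ⟨_, h'⟩
      · exact h'
      · omega
      · exact h')
    rw [h21] at this
    exact this.trans (by norm_num)
  · have := card_dvd_of_const (Ω := Sylow 5 S) H 6 (by rw [h21]; norm_num) (fun g hg hg1 => by
      rcases key g hg hg1 with ⟨h', _⟩ | ⟨_, h'⟩ | ⟨h', _⟩
      · omega
      · exact h'
      · omega)
    rw [h21] at this
    exact this.trans (by norm_num)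
  · have := card_dvd_of_const (Ω := Sylow 5 S) H 1 (by rw [h21]; norm_num) (fun g hg hg1 => by
      rcases key g hg hg1 with ⟨_, h'⟩ | ⟨h', _⟩ | ⟨_, h'⟩
      · exact h'
      · omega
      · exact h')
    rw [h21] at this
    exact this.trans (by norm_num)

theorem card_centralizer_dvd (P : Sylow 5 S) :
    Nat.card (centralizer ((P : Subgroup S) : Set S)) ∣ 60 := by
  rw [Nat.dvd_iff_prime_pow_dvd_dvd]
  intro r k hr hdvd
  have : Fact r.Prime := ⟨hr⟩
  obtain ⟨K, hK⟩ := Sylow.exists_subgroup_card_pow_prime r hdvd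
  refine card_pgroup_dvd h21 P (K.map (centralizer ((P : Subgroup S) : Set S)).subtype) ?_ r k hr ?_
  · exact map_subtype_le K
  · rw [Subgroup.card_map_of_injective (subtype_injective _), hK]

theorem five_dvd_card_centralizer (P : Sylow 5 S) :
    5 ∣ Nat.card (centralizer ((P : Subgroup S) : Set S)) := by
  have hcyc : IsCyclic (P : Subgroup S) := isCyclic_of_prime_card (card5 h21 P)
  have hle : (P : Subgroup S) ≤ centralizer ((P : Subgroup S) : Set S) := by
    intro a ha
    rw [mem_centralizer_iff]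
    intro b hb
    have := hcyc.isMulCommutative.is_comm.comm (⟨a, ha⟩ : (P : Subgroup S)) ⟨b, hb⟩
    exact (congrArg Subtype.val this).symm
  have := card_dvd_of_le hle
  rwa [card5 h21 P] at this

theorem relIndex_facts (P : Sylow 5 S) :
    (centralizer ((P : Subgroup S) : Set S)).relIndex (normalizer ((P : Subgroup S) : Set S)) ∣ 4 ∧
    (centralizer ((P : Subgroup S) : Set S)).relIndex (normalizer ((P : Subgroup S) : Set S)) ≠ 1 ∧
    Nat.card (centralizer ((P : Subgroup S) : Set S)) *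
      (centralizer ((P : Subgroup S) : Set S)).relIndex (normalizer ((P : Subgroup S) : Set S)) =
      Nat.card (normalizer ((P : Subgroup S) : Set S)) := by
  have hP5 := card5 h21 P
  have hcyc : IsCyclic (P : Subgroup S) := isCyclic_of_prime_card hP5
  have hd := Cfsg.Agent.S4304.relIndex_centralizer_normalizer_dvd (P : Subgroup S) hcyc
  rw [hP5, Nat.totient_prime (by norm_num)] at hd
  refine ⟨hd, ?_, ?_⟩
  · intro h1
    have h2 := relIndex_eq_one.1 h1
    have := Cfsg.Agent.S4304.card_eq_of_simple_of_normalizer_le_centralizer P h2 (by rw [hP5]; norm_num)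
    have h3 := card_normalizer h21 P
    have h4 : 0 < Nat.card (normalizer ((P : Subgroup S) : Set S)) := Nat.card_pos
    omega
  · have hC := relIndex_mul_relIndex ⊥ (centralizer ((P : Subgroup S) : Set S))
      (normalizer ((P : Subgroup S) : Set S)) bot_le (centralizer_le_normalizer _)
    rw [relIndex_bot_left, relIndex_bot_left] at hC
    exact hC

theorem card_normalizer_dvd (P : Sylow 5 S) :
    Nat.card (normalizer ((P : Subgroup S) : Set S)) ∣ 240 := by
  obtain ⟨h1, _, h3⟩ := relIndex_facts h21 P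
  rw [← h3]
  exact mul_dvd_mul (card_centralizer_dvd h21 P) h1

theorem fx_seven (t : S) (ht : orderOf t = 7) : fx t = 0 := by
  by_contra hne
  have hne' : Nonempty (fixedBy (Sylow 5 S) t) := by
    by_contra hemp
    rw [not_nonempty_iff] at hemp
    exact hne (Nat.card_of_isEmpty)
  obtain ⟨⟨R, hR⟩⟩ := hne'
  have h1 : t ∈ normalizer ((R : Subgroup S) : Set S) := Sylow.smul_eq_iff_mem_normalizer.1 hR
  have h2 := Subgroup.orderOf_dvd_natCard _ h1
  rw [ht] at h2
  have := h2.trans (card_normalizer_dvd h21 R)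
  omega

theorem fx_of_commute_seven (t : S) (ht : orderOf t = 7) (g : S) (hc : Commute g t) (hg : g ≠ 1) :
    fx g = 0 := by
  have : Fact (Nat.Prime 7) := ⟨by norm_num⟩
  have ho1 : orderOf g ≠ 1 := by rwa [Ne, orderOf_eq_one_iff]
  obtain ⟨r, hr, hrd⟩ := Nat.exists_prime_and_dvd ho1
  have : Fact r.Prime := ⟨hr⟩
  set g' := g ^ (orderOf g / r) with hg'
  have ho : orderOf g' = r := orderOf_pow_orderOf_div (orderOf_pos g).ne' hrd
  have hc' : Commute g' t := hc.pow_left _
  have hg'1 : g' ≠ 1 := by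
    intro h
    rw [h, orderOf_one] at ho
    exact hr.one_lt.ne ho
  have h1 := card_modEq_fixed t (isPGroup_zpowers t 1 (by rw [ht, pow_one])) (fixedBy (Sylow 5 S) g')
    (by
      intro Q hQ
      have hQ' : g' • Q = Q := hQ
      change g' • (t • Q) = t • Q
      rw [← mul_smul, hc'.eq, mul_smul, hQ'])
  have h2 : Nat.card ↥(fixedBy (Sylow 5 S) g' ∩ fixedBy (Sylow 5 S) t) = 0 := by
    have h3 := fx_seven h21 t ht
    have h4 := Nat.card_mono (Set.toFinite _)
      (Set.inter_subset_right (s := fixedBy (Sylow 5 S) g') (t := fixedBy (Sylow 5 S) t))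
    unfold fx at h3
    omega
  rw [h2] at h1
  have h1' : fx g' ≡ 0 [MOD 7] := h1
  have h3 := fx_le_twenty h21 g' hg'1
  have h4 := fx_modEq (r := r) g' 1 (by rw [ho, pow_one])
  rw [h21] at h4
  have h5 : r ∣ 21 - fx g' := (Nat.modEq_iff_dvd' (by omega)).1 h4.symm
  have h6 : fx g ≤ fx g' := fx_le_pow g (orderOf g / r)
  unfold Nat.ModEq at h1'
  have h7 : fx g' = 0 ∨ fx g' = 7 ∨ fx g' = 14 := by omega
  rcases h7 with h7 | h7 | h7
  · omega
  · exfalso
    rw [h7] at h5
    have h8 : r ∣ 2 * 7 := by norm_num; exact h5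
    rcases (Nat.Prime.dvd_mul hr).1 h8 with h9 | h9
    · have h10 := (Nat.prime_dvd_prime_iff_eq hr (by norm_num)).1 h9
      subst h10
      have := fx_two h21 g' ho
      omega
    · have h10 := (Nat.prime_dvd_prime_iff_eq hr (by norm_num)).1 h9
      subst h10
      have := fx_seven h21 g' ho
      omega
  · exfalso
    rw [h7] at h5
    have h9 : r ∣ 7 := by norm_num at h5; exact h5
    have h10 := (Nat.prime_dvd_prime_iff_eq hr (by norm_num)).1 h9
    subst h10
    have := fx_seven h21 g' ho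
    omega

end Simple

theorem arith_main (c e c7 e7 n7 : ℕ) (hc : c ∣ 60) (h5 : 5 ∣ c) (he : e ∣ 4) (he1 : e ≠ 1)
    (hc7 : c7 ∣ 21) (h7 : 7 ∣ c7) (he7 : e7 ∣ 6) (he71 : e7 ≠ 1)
    (h : n7 * (c7 * e7) = 21 * (c * e)) (hmod : n7 % 7 = 1) :
    c * e = 10 ∨ c * e = 30 ∨ (c = 20 ∧ e = 4) ∨ c * e = 120 ∨ c * e = 240 := by
  have hc60 : c ≤ 60 := Nat.le_of_dvd (by norm_num) hc
  have he4 : e ≤ 4 := Nat.le_of_dvd (by norm_num) he
  have hc21 : c7 ≤ 21 := Nat.le_of_dvd (by norm_num) hc7
  have he6 : e7 ≤ 6 := Nat.le_of_dvd (by norm_num) he7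
  have hc' : c = 5 ∨ c = 10 ∨ c = 15 ∨ c = 20 ∨ c = 30 ∨ c = 60 := by
    obtain ⟨a, rfl⟩ := h5
    have ha : a ∣ 12 := by
      have : 5 * a ∣ 5 * 12 := by norm_num; exact hc
      exact Nat.dvd_of_mul_dvd_mul_left (by norm_num) this
    have ha12 : a ≤ 12 := Nat.le_of_dvd (by norm_num) ha
    interval_cases a <;> omega
  have he' : e = 2 ∨ e = 4 := by interval_cases e <;> omega
  have hc7' : c7 = 7 ∨ c7 = 21 := by
    obtain ⟨a, rfl⟩ := h7
    have ha : a ∣ 3 := by
      have : 7 * a ∣ 7 * 3 := by norm_num; exact hc7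
      exact Nat.dvd_of_mul_dvd_mul_left (by norm_num) this
    have ha12 : a ≤ 3 := Nat.le_of_dvd (by norm_num) ha
    interval_cases a <;> omega
  have he7' : e7 = 2 ∨ e7 = 3 ∨ e7 = 6 := by interval_cases e7 <;> omega
  rcases hc' with rfl | rfl | rfl | rfl | rfl | rfl <;> rcases he' with rfl | rfl <;>
    rcases hc7' with rfl | rfl <;> rcases he7' with rfl | rfl | rfl <;> omega

theorem arith_aux (c e : ℕ) (he4 : e ∣ 4) (hc60 : c ∣ 60) (hce : c * e = 80) (h30 : 30 ≤ c) :
    False := by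
  have he4' := Nat.le_of_dvd (by norm_num) he4
  have hc60' := Nat.le_of_dvd (by norm_num) hc60
  interval_cases e
  · omega
  · omega
  · have : c = 40 := by omega
    subst this
    omega
  · omega
  · omega

section Simple2
variable {S : Type*} [Group S] [Finite S] [IsSimpleGroup S]

theorem prime_sylow_facts {q : ℕ} [Fact q.Prime] (Q : Sylow q S) (hQ : Nat.card Q = q)
    (hS : Nat.card S ≠ q) :
    (centralizer ((Q : Subgroup S) : Set S)).relIndex (normalizer ((Q : Subgroup S) : Set S)) ∣ q - 1 ∧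
    (centralizer ((Q : Subgroup S) : Set S)).relIndex (normalizer ((Q : Subgroup S) : Set S)) ≠ 1 ∧
    Nat.card (centralizer ((Q : Subgroup S) : Set S)) *
      (centralizer ((Q : Subgroup S) : Set S)).relIndex (normalizer ((Q : Subgroup S) : Set S)) =
      Nat.card (normalizer ((Q : Subgroup S) : Set S)) ∧
    q ∣ Nat.card (centralizer ((Q : Subgroup S) : Set S)) := by
  have hq : q.Prime := Fact.out
  have hcyc : IsCyclic (Q : Subgroup S) := isCyclic_of_prime_card hQ
  have hd := Cfsg.Agent.S4304.relIndex_centralizer_normalizer_dvd (Q : Subgroup S) hcyc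
  rw [hQ, Nat.totient_prime hq] at hd
  refine ⟨hd, ?_, ?_, ?_⟩
  · intro h1
    have h2 := relIndex_eq_one.1 h1
    have := Cfsg.Agent.S4304.card_eq_of_simple_of_normalizer_le_centralizer Q h2
      (by rw [hQ]; exact hq.one_lt.ne')
    rw [hQ] at this
    exact hS this
  · have hC := relIndex_mul_relIndex ⊥ (centralizer ((Q : Subgroup S) : Set S))
      (normalizer ((Q : Subgroup S) : Set S)) bot_le (centralizer_le_normalizer _)
    rw [relIndex_bot_left, relIndex_bot_left] at hC
    exact hC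
  · have hle : (Q : Subgroup S) ≤ centralizer ((Q : Subgroup S) : Set S) := by
      intro a ha
      rw [mem_centralizer_iff]
      intro b hb
      have := hcyc.isMulCommutative.is_comm.comm (⟨a, ha⟩ : (Q : Subgroup S)) ⟨b, hb⟩
      exact (congrArg Subtype.val this).symm
    have := card_dvd_of_le hle
    rwa [hQ] at this

variable (h21 : Nat.card (Sylow 5 S) = 21)
include h21

theorem main_cases (P : Sylow 5 S) :
    (Nat.card (centralizer ((P : Subgroup S) : Set S)) = 20 ∧
      Nat.card (normalizer ((P : Subgroup S) : Set S)) = 80) ∨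
    30 ≤ Nat.card (centralizer ((P : Subgroup S) : Set S)) := by
  have : Fact (Nat.Prime 7) := ⟨by norm_num⟩
  have : Fact (Nat.Prime 2) := ⟨by norm_num⟩
  obtain ⟨he4, he1, hce⟩ := relIndex_facts h21 P
  have hc60 := card_centralizer_dvd h21 P
  have hc5 := five_dvd_card_centralizer h21 P
  have hS := card_normalizer h21 P
  set c := Nat.card (centralizer ((P : Subgroup S) : Set S)) with hc
  set e := (centralizer ((P : Subgroup S) : Set S)).relIndex (normalizer ((P : Subgroup S) : Set S))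
    with he
  rw [← hce] at hS ⊢
  have hcpos : 0 < c := Nat.card_pos
  have hepos : 0 < e := Nat.pos_of_dvd_of_pos he4 (by norm_num)
  have h240 : c * e ∣ 240 := mul_dvd_mul hc60 he4
  -- Sylow 7
  have h7 : 7 ∣ Nat.card S := by rw [← hS]; exact Dvd.dvd.mul_right (by norm_num) _
  have h49 : ¬ 7 ^ 2 ∣ Nat.card S := by
    rw [← hS]
    intro h
    have := h.trans (mul_dvd_mul_left 21 h240)
    omega
  obtain ⟨T⟩ : Nonempty (Sylow 7 S) := inferInstance
  have hT := Cfsg.Agent.S4304.sylow_card_eq_prime T h7 h49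
  have hS7 : Nat.card S ≠ 7 := by
    rw [← hS]
    have : 0 < c * e := Nat.mul_pos hcpos hepos
    omega
  obtain ⟨he7, he71, hce7, hc7⟩ := prime_sylow_facts T hT hS7
  obtain ⟨t, ht⟩ := exists_prime_orderOf_dvd_card' (G := (T : Subgroup S)) 7 (by rw [hT])
  have ht' : orderOf (t : S) = 7 := by rw [Subgroup.orderOf_coe, ht]
  have hc21 := card_dvd_of_const (Ω := Sylow 5 S) (centralizer ((T : Subgroup S) : Set S)) 0
    (Nat.zero_le _) (fun g hg hg1 =>
      fx_of_commute_seven h21 (t : S) ht' g ((mem_centralizer_iff.1 hg) t t.2).symm hg1)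
  rw [h21] at hc21
  have hn7 : Nat.card (Sylow 7 S) * Nat.card (normalizer ((T : Subgroup S) : Set S)) = Nat.card S := by
    rw [Sylow.card_eq_index_normalizer T]; exact index_mul_card _
  have hmod : Nat.card (Sylow 7 S) % 7 = 1 := card_sylow_modEq_one 7 S
  rw [← hce7, ← hS] at hn7
  rcases arith_main c e _ _ _ hc60 hc5 he4 he1 hc21 hc7 he7 he71 hn7 hmod with h | h | h | h | h
  · -- order 210
    exfalso
    rw [h] at hS
    obtain ⟨W⟩ : Nonempty (Sylow 2 S) := inferInstance
    have hW := Cfsg.Agent.S4304.sylow_card_eq_prime W (by rw [← hS]; norm_num)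
      (by rw [← hS]; norm_num)
    obtain ⟨h1, h2, _, _⟩ := prime_sylow_facts W hW (by rw [← hS]; norm_num)
    exact h2 (Nat.dvd_one.1 h1)
  · exfalso
    rw [h] at hS
    obtain ⟨W⟩ : Nonempty (Sylow 2 S) := inferInstance
    have hW := Cfsg.Agent.S4304.sylow_card_eq_prime W (by rw [← hS]; norm_num)
      (by rw [← hS]; norm_num)
    obtain ⟨h1, h2, _, _⟩ := prime_sylow_facts W hW (by rw [← hS]; norm_num)
    exact h2 (Nat.dvd_one.1 h1)
  · left
    rw [h.1, h.2]
    exact ⟨rfl, rfl⟩
  · right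
    have he4' : e ≤ 4 := Nat.le_of_dvd (by norm_num) he4
    nlinarith
  · right
    have he4' : e ≤ 4 := Nat.le_of_dvd (by norm_num) he4
    nlinarith

theorem dichotomy :
    (∀ P : Sylow 5 S, Nat.card (centralizer ((P : Subgroup S) : Set S)) = 20 ∧
      Nat.card (normalizer ((P : Subgroup S) : Set S)) = 80) ∨
    (∀ P : Sylow 5 S, 30 ≤ Nat.card (centralizer ((P : Subgroup S) : Set S))) := by
  have aux : ∀ P : Sylow 5 S, Nat.card (normalizer ((P : Subgroup S) : Set S)) = 80 →
      30 ≤ Nat.card (centralizer ((P : Subgroup S) : Set S)) → False := by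
    intro P h80 h30
    obtain ⟨he4, he1, hce⟩ := relIndex_facts h21 P
    have hc60 := card_centralizer_dvd h21 P
    rw [h80] at hce
    exact arith_aux _ _ he4 hc60 hce h30
  obtain ⟨P₀⟩ : Nonempty (Sylow 5 S) := inferInstance
  have hS₀ := card_normalizer h21 P₀
  rcases main_cases h21 P₀ with h | h
  · left
    intro P
    have hS := card_normalizer h21 P
    rcases main_cases h21 P with h' | h'
    · exact h'
    · exact (aux P (by omega) h').elim
  · right
    intro P
    have hS := card_normalizer h21 P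
    rcases main_cases h21 P with h' | h'
    · exact (aux P₀ (by omega) h).elim
    · exact h'

end Simple2
open Classical in
theorem design_false {Ω : Type*} [Finite Ω] (hΩ : Nat.card Ω = 21) (L : Ω → Ω → Set Ω)
    (h6 : ∀ a b, a ≠ b → (L a b).ncard = 6) (hmem : ∀ a b, a ≠ b → a ∈ L a b ∧ b ∈ L a b)
    (huniq : ∀ a b c d, a ≠ b → c ≠ d → c ∈ L a b → d ∈ L a b → L c d = L a b) : False := by
  have : Fintype Ω := Fintype.ofFinite _
  have hnt : Nontrivial Ω := by
    rw [← Finite.one_lt_card_iff_nontrivial]; omega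
  obtain ⟨a, b, hab⟩ := exists_pair_ne Ω
  have hex : ∃ δ, δ ∉ L a b := by
    by_contra hcon
    push Not at hcon
    have : L a b = Set.univ := Set.eq_univ_iff_forall.2 hcon
    have h := h6 a b hab
    rw [this, Set.ncard_univ, hΩ] at h
    omega
  obtain ⟨δ, hδ⟩ := hex
  have hne : ∀ γ ∈ L a b, γ ≠ δ := fun γ hγ h => hδ (h ▸ hγ)
  have hcard : ((L a b).toFinset.biUnion (fun γ => (L γ δ).toFinset.erase δ)).card = 30 := by
    rw [Finset.card_biUnion]
    · rw [Finset.sum_congr rfl (g := fun _ => 5), Finset.sum_const, ← Set.ncard_eq_toFinset_card',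
        h6 a b hab]
      · rfl
      · intro γ hγ
        rw [Set.mem_toFinset] at hγ
        rw [Finset.card_erase_of_mem (by rw [Set.mem_toFinset]; exact (hmem γ δ (hne γ hγ)).2),
          ← Set.ncard_eq_toFinset_card', h6 γ δ (hne γ hγ)]
    · intro γ hγ γ' hγ' hγγ'
      rw [Finset.mem_coe, Set.mem_toFinset] at hγ hγ'
      change Disjoint _ _
      rw [Finset.disjoint_left]
      intro ε hε hε'
      rw [Finset.mem_erase, Set.mem_toFinset] at hε hε'
      apply hδ
      have e1 := huniq γ δ ε δ (hne γ hγ) hε.1 hε.2 (hmem γ δ (hne γ hγ)).2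
      have e2 := huniq γ' δ ε δ (hne γ' hγ') hε'.1 hε'.2 (hmem γ' δ (hne γ' hγ')).2
      have e3 : γ' ∈ L γ δ := by rw [← e1, e2]; exact (hmem γ' δ (hne γ' hγ')).1
      have e4 := huniq γ δ γ γ' (hne γ hγ) hγγ' (hmem γ δ (hne γ hγ)).1 e3
      have e5 := huniq a b γ γ' hab hγγ' hγ hγ'
      rw [← e5, e4]
      exact (hmem γ δ (hne γ hγ)).2
  have hle := Finset.card_le_univ ((L a b).toFinset.biUnion (fun γ => (L γ δ).toFinset.erase δ))
  rw [hcard, ← Nat.card_eq_fintype_card, hΩ] at hle
  omega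

section Orbits
variable {S : Type*} [Group S] [Finite S] (h21 : Nat.card (Sylow 5 S) = 21)
include h21

theorem ncard_orbit_le (H : Subgroup S) (P Q : Sylow 5 S) (hH : ∀ h ∈ H, h • P = P) (hPQ : P ≠ Q) :
    orbit H Q ⊆ {P}ᶜ ∧ ({P}ᶜ : Set (Sylow 5 S)).ncard = 20 := by
  constructor
  · rintro _ ⟨h, rfl⟩ hP
    apply hPQ
    have h1 : (h : S) • Q = P := hP
    have h2 := hH h h.2
    rw [← h1, smul_left_cancel_iff] at h2
    rw [← h1, h2]
  · have := Set.ncard_add_ncard_compl ({P} : Set (Sylow 5 S))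
    rw [Set.ncard_singleton, h21] at this
    omega

theorem exists_stab (H : Subgroup S) (P Q : Sylow 5 S) (hH : ∀ h ∈ H, h • P = P) (hPQ : P ≠ Q)
    (hcard : 20 < Nat.card H) : ∃ g ∈ H, g ≠ 1 ∧ g • Q = Q := by
  by_contra hcon
  push Not at hcon
  have hstab : stabilizer H Q = ⊥ := by
    rw [eq_bot_iff_forall]
    intro g hg
    by_contra hg1
    exact hcon g g.2 (fun h => hg1 (Subtype.ext h)) hg
  have hidx := index_stabilizer H Q
  rw [hstab, index_bot] at hidx
  obtain ⟨h1, h2⟩ := ncard_orbit_le h21 H P Q hH hPQ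
  have h3 := Set.ncard_le_ncard h1 (Set.toFinite _)
  omega

theorem exists_smul_eq_of_regular (H : Subgroup S) (P Q : Sylow 5 S) (hH : ∀ h ∈ H, h • P = P)
    (hPQ : P ≠ Q) (hstab : ∀ g ∈ H, g • Q = Q → g = 1) (hcard : Nat.card H = 20)
    (Q' : Sylow 5 S) (hQ' : P ≠ Q') : ∃ h ∈ H, h • Q = Q' := by
  have hstab' : stabilizer H Q = ⊥ := by
    rw [eq_bot_iff_forall]
    intro g hg
    exact Subtype.ext (hstab g g.2 hg)
  have hidx := index_stabilizer H Q
  rw [hstab', index_bot] at hidx
  obtain ⟨h1, h2⟩ := ncard_orbit_le h21 H P Q hH hPQ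
  have h3 := Set.eq_of_subset_of_ncard_le h1 (by omega) (Set.toFinite _)
  have h4 : Q' ∈ orbit H Q := by
    rw [h3]
    exact fun h => hQ' h.symm
  obtain ⟨h, hh⟩ := h4
  exact ⟨h, h.2, hh⟩

end Orbits

end Cfsg.Agent.Lib.Helper54.Syl21
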